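import Mathlib.Algebra.GCDMonoid.Finset
import Mathlib.Algebra.GCDMonoid.Nat
import Mathlib.Algebra.BigOperators.Fin
import Mathlib.Algebra.EuclideanDomain.Int
import Mathlib.RingTheory.PrincipalIdealDomain
import Mathlib.Algebra.Group.TypeTags.Hom
import Mathlib.Data.Rat.Cast.Order
import Mathlib.Tactic.FieldSimp
import Mathlib.Tactic.Ring
import Mathlib.Tactic.LinearCombination

/-!
# Number theoretic core of: degree zero on every component implies `d`-torsion

Everything here is about an abstract commutative group `G` (the Picard group), elements `P i`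
(the classes of the components) and degree homomorphisms `δ i`.
-/

set_option autoImplicit false

namespace Groth.Agent.Models.H63.DegZero

open Finset

/-- Bezout for a finite family of natural numbers. -/
theorem exists_bezout {n : ℕ} (m : Fin n → ℕ) :
    ∃ u : Fin n → ℤ, ((Finset.univ.gcd m : ℕ) : ℤ) = ∑ i, u i * (m i : ℤ) := by
  classical
  have key : ∀ s : Finset (Fin n), ∃ u : Fin n → ℤ, ((s.gcd m : ℕ) : ℤ) = ∑ i ∈ s, u i * (m i : ℤ) := by
    intro s
    induction s using Finset.induction_on with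
    | empty => exact ⟨0, by simp⟩
    | insert a s ha ih =>
      obtain ⟨u, hu⟩ := ih
      rw [Finset.gcd_insert]
      have h : ((GCDMonoid.gcd (m a) (s.gcd m) : ℕ) : ℤ) =
          (m a : ℤ) * Nat.gcdA (m a) (s.gcd m) + ((s.gcd m : ℕ) : ℤ) * Nat.gcdB (m a) (s.gcd m) :=
        Nat.gcd_eq_gcd_ab _ _
      refine ⟨fun i => if i = a then Nat.gcdA (m a) (s.gcd m) else Nat.gcdB (m a) (s.gcd m) * u i, ?_⟩
      rw [Finset.sum_insert ha, h]
      beta_reduce
      rw [if_pos rfl]
      conv_lhs => rw [hu, Finset.sum_mul]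
      congr 1
      · ring
      · refine Finset.sum_congr rfl fun i hi => ?_
        have hia : i ≠ a := fun e => ha (e ▸ hi)
        rw [if_neg hia]
        ring
  exact key _

/-- An integer vector which is a rational multiple of `m` becomes an integer multiple of `m` after
multiplication by the gcd of `m`. -/
theorem exists_int_of_rat {n : ℕ} (m : Fin n → ℕ) (a : Fin n → ℤ) (c : ℚ)
    (h : ∀ i, (a i : ℚ) = c * (m i : ℚ)) :
    ∃ N : ℤ, ∀ i, ((Finset.univ.gcd m : ℕ) : ℤ) * a i = N * (m i : ℤ) := by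
  obtain ⟨u, hu⟩ := exists_bezout m
  refine ⟨∑ i, u i * a i, fun j => ?_⟩
  have hN : ((∑ i, u i * a i : ℤ) : ℚ) = c * ((Finset.univ.gcd m : ℕ) : ℤ) := by
    rw [hu]
    push_cast
    rw [Finset.mul_sum]
    refine Finset.sum_congr rfl fun i _ => ?_
    rw [h i]; ring
  have : (((Finset.univ.gcd m : ℕ) : ℤ) * a j : ℚ) = ((∑ i, u i * a i : ℤ) : ℚ) * (m j : ℤ) := by
    rw [hN]
    push_cast
    rw [h j]; ring
  exact_mod_cast this

variable {G : Type*} [CommGroup G]

/-- The core statement in an abstract commutative group with degree homomorphisms. -/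
theorem pow_gcd_eq_one {n : ℕ} (δ : Fin n → (G →* Multiplicative ℤ)) (m : Fin n → ℕ) (P : Fin n → G)
    (x : G) (c : Fin n → ℤ) (hx : x = ∏ i, P i ^ c i) (hdeg : ∀ i, δ i x = 1)
    (hform : ∀ a : Fin n → ℤ,
      (∑ q : Fin n × Fin n, a q.1 * a q.2 * Multiplicative.toAdd (δ q.1 (P q.2))) = 0 →
        ∃ r : ℚ, ∀ i, (a i : ℚ) = r * (m i : ℚ))
    (hm : ∏ i, P i ^ (m i : ℤ) = 1) : x ^ (Finset.univ.gcd m) = 1 := by
  have h0 : ∀ i, ∑ j, c j * Multiplicative.toAdd (δ i (P j)) = 0 := by
    intro i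
    have h1 := hdeg i
    rw [hx, map_prod] at h1
    have h2 := congrArg Multiplicative.toAdd h1
    rw [toAdd_prod, toAdd_one] at h2
    rw [← h2]
    refine Finset.sum_congr rfl fun j _ => ?_
    rw [map_zpow, toAdd_zpow, smul_eq_mul]
  obtain ⟨r, hr⟩ := hform c (by
    rw [Fintype.sum_prod_type]
    refine Finset.sum_eq_zero fun i _ => ?_
    have := h0 i
    calc ∑ j, c i * c j * Multiplicative.toAdd (δ i (P j))
        = c i * ∑ j, c j * Multiplicative.toAdd (δ i (P j)) := by
          rw [Finset.mul_sum]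
          exact Finset.sum_congr rfl fun j _ => by ring
      _ = 0 := by rw [this, mul_zero])
  obtain ⟨N, hN⟩ := exists_int_of_rat m c r hr
  rw [← zpow_natCast, hx, ← Finset.prod_zpow]
  calc ∏ i, (P i ^ c i) ^ ((Finset.univ.gcd m : ℕ) : ℤ) = ∏ i, (P i ^ (m i : ℤ)) ^ N := by
        refine Finset.prod_congr rfl fun i _ => ?_
        rw [← zpow_mul, ← zpow_mul, mul_comm (c i), hN i, mul_comm N]
    _ = 1 := by rw [Finset.prod_zpow, hm, one_zpow]

end Groth.Agent.Models.H63.DegZero
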